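import Mathlib
import Cfsg.Agent.Eq.Def_Transfer
import Cfsg.Agent.LinAlg.Witt.Bases
import Cfsg.Agent.PGroup.Commutator

/-!
Extraspecial groups of exponent `p`: symplectic coordinates and uniqueness.
-/

set_option autoImplicit false

namespace CfsgLib.ExtraspecialOdd

open Cfsg
open scoped commutatorElement

variable {p : ℕ} [Fact p.Prime]

/-- Coordinates. -/
abbrev Vp (p n : ℕ) : Type := Fin n ⊕ Fin n → ZMod p

/-- The standard alternating form. -/
def sb (n : ℕ) (u v : Vp p n) : ZMod p :=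
  ∑ i : Fin n, (u (.inl i) * v (.inr i) - u (.inr i) * v (.inl i))

/-- Powers with exponent in `ZMod p`. -/
def zp {E : Type*} [Group E] (z : E) (a : ZMod p) : E := z ^ a.val

theorem zp_add {E : Type*} [Group E] {z : E} (hz : z ^ p = 1) (a b : ZMod p) :
    zp z (a + b) = zp z a * zp z b := by
  rw [zp, zp, zp, ← pow_add, ZMod.val_add, ← pow_eq_pow_mod _ hz]

theorem pow_zp {E : Type*} [Group E] {z : E} (hz : z ^ p = 1) (k : ℕ) : zp z (k : ZMod p) = z ^ k := by
  rw [zp, ZMod.val_natCast, ← pow_eq_pow_mod k hz]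

theorem zp_injective {E : Type*} [Group E] {z : E} (hz : orderOf z = p) {a b : ZMod p}
    (h : zp z a = zp z b) : a = b :=
  ZMod.val_injective p (pow_injOn_Iio_orderOf (show a.val < orderOf z by rw [hz]; exact a.val_lt)
    (show b.val < orderOf z by rw [hz]; exact b.val_lt) h)

/-- Two central extensions of exponent `p` with the same commutator map are isomorphic. -/
theorem exists_mulEquiv {E₁ E₂ W : Type*} [Group E₁] [Group E₂] [Group W] [Finite E₁] [Finite E₂]
    (π₁ : E₁ →* W) (π₂ : E₂ →* W) (hs₁ : Function.Surjective π₁) (hs₂ : Function.Surjective π₂)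
    {z₁ : E₁} {z₂ : E₂} (ho₁ : orderOf z₁ = p) (ho₂ : orderOf z₂ = p)
    (hk₁ : ∀ x, π₁ x = 1 ↔ x ∈ Subgroup.zpowers z₁) (hk₂ : ∀ x, π₂ x = 1 ↔ x ∈ Subgroup.zpowers z₂)
    (he₁ : ∀ x : E₁, x ^ p = 1) (he₂ : ∀ x : E₂, x ^ p = 1)
    (hcomm : ∀ x y x' y', π₁ x = π₂ x' → π₁ y = π₂ y' →
      ∃ k : ℕ, ⁅x, y⁆ = z₁ ^ k ∧ ⁅x', y'⁆ = z₂ ^ k) : Nonempty (E₁ ≃* E₂) := by
  have hp : p.Prime := Fact.out
  let P : Subgroup (E₁ × E₂) := MonoidHom.eqLocus (π₁.comp (MonoidHom.fst E₁ E₂))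
    (π₂.comp (MonoidHom.snd E₁ E₂))
  have hz₁ : π₁ z₁ = 1 := (hk₁ _).2 (Subgroup.mem_zpowers _)
  have hz₂ : π₂ z₂ = 1 := (hk₂ _).2 (Subgroup.mem_zpowers _)
  let d : ↥P := ⟨(z₁, z₂), show π₁ z₁ = π₂ z₂ from hz₁.trans hz₂.symm⟩
  let a : ↥P := ⟨(z₁, 1), show π₁ z₁ = π₂ 1 from hz₁.trans (map_one _).symm⟩
  let b : ↥P := ⟨(1, z₂), show π₁ 1 = π₂ z₂ from (map_one _).trans hz₂.symm⟩
  have hab : Commute a b := Subtype.ext (Prod.ext (by simp [a, b]) (by simp [a, b]))
  have habd : a * b = d := Subtype.ext (Prod.ext (mul_one z₁) (one_mul z₂))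
  have hz₁1 : z₁ ≠ 1 := fun e => hp.ne_one (by rw [← ho₁, e, orderOf_one])
  have hz₂1 : z₂ ≠ 1 := fun e => hp.ne_one (by rw [← ho₂, e, orderOf_one])
  have haK : a ∉ Subgroup.zpowers d := by
    intro h
    obtain ⟨k, hk⟩ := Subgroup.mem_zpowers_iff.1 h
    have h2 : z₂ ^ k = 1 := congrArg (fun x : ↥P => (x : E₁ × E₂).2) hk
    have h1 : z₁ ^ k = z₁ := congrArg (fun x : ↥P => (x : E₁ × E₂).1) hk
    have : (orderOf z₁ : ℤ) ∣ k := by rw [ho₁, ← ho₂]; exact orderOf_dvd_iff_zpow_eq_one.2 h2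
    rw [orderOf_dvd_iff_zpow_eq_one.1 this] at h1
    exact hz₁1 h1.symm
  obtain ⟨H, ⟨hKH, haH⟩, hmax⟩ := Set.Finite.exists_maximal
    (Set.toFinite {H : Subgroup ↥P | Subgroup.zpowers d ≤ H ∧ a ∉ H}) ⟨_, le_rfl, haK⟩
  have hcm : ∀ g h : ↥P, ⁅g, h⁆ ∈ H := by
    intro g h
    obtain ⟨k, h1, h2⟩ := hcomm (g : E₁ × E₂).1 (h : E₁ × E₂).1 (g : E₁ × E₂).2 (h : E₁ × E₂).2 g.2 h.2
    have : ⁅g, h⁆ = d ^ k := Subtype.ext (Prod.ext h1 h2)
    rw [this]
    exact hKH (Subgroup.pow_mem _ (Subgroup.mem_zpowers d) k)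
  haveI hHn : H.Normal := ⟨fun n hn g => by
    have := H.mul_mem (hcm g n) hn
    rwa [commutatorElement_def, inv_mul_cancel_right] at this⟩
  have hep : ∀ y : ↥P, y ^ (p : ℤ) = 1 := fun y => by
    rw [zpow_natCast]; exact Subtype.ext (Prod.ext (he₁ _) (he₂ _))
  have split : ∀ k : ℤ, ¬ (p : ℤ) ∣ k → ∃ l : ℤ, ∀ y : ↥P, (y ^ k) ^ l = y := by
    intro k hk
    have hk0 : (k : ZMod p) ≠ 0 := fun e => hk ((ZMod.intCast_zmod_eq_zero_iff_dvd k p).1 e)
    refine ⟨((k : ZMod p)⁻¹.val : ℤ), fun y => ?_⟩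
    obtain ⟨m, hm⟩ : (p : ℤ) ∣ k * ((k : ZMod p)⁻¹.val : ℤ) - 1 := by
      rw [← ZMod.intCast_zmod_eq_zero_iff_dvd]
      push_cast
      rw [ZMod.natCast_zmod_val, mul_inv_cancel₀ hk0, sub_self]
    rw [← zpow_mul, sub_eq_iff_eq_add.1 hm, zpow_add, zpow_one, zpow_mul, hep, one_zpow, one_mul]
  have hcover : ∀ y : ↥P, ∃ k : ℤ, y * (a ^ k)⁻¹ ∈ H := by
    intro y
    by_cases hy : y ∈ H
    · exact ⟨0, by simpa using hy⟩
    have haH' : a ∈ H ⊔ Subgroup.zpowers y := by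
      by_contra hn
      exact hy (hmax ⟨hKH.trans le_sup_left, hn⟩ le_sup_left
        ((le_sup_right : _ ≤ H ⊔ _) (Subgroup.mem_zpowers y)))
    obtain ⟨h, hh, w, hw, e⟩ := Subgroup.mem_sup_of_normal_left.1 haH'
    obtain ⟨k, rfl⟩ := Subgroup.mem_zpowers_iff.1 hw
    have hk : ¬ (p : ℤ) ∣ k := by
      rintro ⟨m, rfl⟩
      rw [zpow_mul, hep, one_zpow, mul_one] at e
      exact haH (e ▸ hh)
    obtain ⟨l, hl⟩ := split k hk
    refine ⟨l, ?_⟩
    rw [← QuotientGroup.eq_one_iff, QuotientGroup.mk_mul, QuotientGroup.mk_inv, QuotientGroup.mk_zpow,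
      ← e, QuotientGroup.mk_mul, (QuotientGroup.eq_one_iff h).2 hh, one_mul, ← QuotientGroup.mk_zpow,
      hl, mul_inv_cancel]
  let f₁ : ↥H →* E₁ := (MonoidHom.fst E₁ E₂).comp (P.subtype.comp H.subtype)
  let f₂ : ↥H →* E₂ := (MonoidHom.snd E₁ E₂).comp (P.subtype.comp H.subtype)
  have hapow : ∀ j : ℤ, a ^ j ∈ H → a ^ j = 1 := by
    intro j hj
    by_cases hd : (p : ℤ) ∣ j
    · obtain ⟨m, rfl⟩ := hd
      rw [zpow_mul, hep, one_zpow]
    · obtain ⟨l, hl⟩ := split j hd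
      exact absurd (hl a ▸ H.zpow_mem hj l) haH
  have hb₁ : Function.Bijective f₁ := by
    refine ⟨(injective_iff_map_eq_one f₁).2 ?_, fun x => ?_⟩
    · rintro ⟨⟨⟨x, y⟩, hxy⟩, hh⟩ (e : x = 1)
      subst e
      obtain ⟨j, rfl⟩ := Subgroup.mem_zpowers_iff.1 ((hk₂ y).1 ((show π₁ 1 = π₂ y from hxy).symm.trans (map_one π₁)))
      have hbj : (⟨(1, z₂ ^ j), hxy⟩ : ↥P) = b ^ j := Subtype.ext (Prod.ext (one_zpow j).symm rfl)
      rw [hbj] at hh
      have haj : a ^ j ∈ H := by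
        have h2 : a ^ j = d ^ j * (b ^ j)⁻¹ := by rw [← habd, hab.mul_zpow, mul_inv_cancel_right]
        rw [h2]
        exact H.mul_mem (H.zpow_mem (hKH (Subgroup.mem_zpowers d)) j) (H.inv_mem hh)
      have h1 : z₁ ^ j = 1 := congrArg (fun w : ↥P => (w : E₁ × E₂).1) (hapow j haj)
      have h2 : z₂ ^ j = 1 := by
        rw [← orderOf_dvd_iff_zpow_eq_one, ho₂, ← ho₁, orderOf_dvd_iff_zpow_eq_one]; exact h1
      exact Subtype.ext (Subtype.ext (Prod.ext rfl h2))
    · obtain ⟨y, hy⟩ := hs₂ (π₁ x)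
      let g : ↥P := ⟨(x, y), hy.symm⟩
      obtain ⟨k, hk⟩ := hcover g
      have hmem : g * b ^ k ∈ H := by
        have : g * b ^ k = g * (a ^ k)⁻¹ * (a * b) ^ k := by rw [hab.mul_zpow]; group
        rw [this, habd]
        exact H.mul_mem hk (H.zpow_mem (hKH (Subgroup.mem_zpowers d)) k)
      refine ⟨⟨g * b ^ k, hmem⟩, ?_⟩
      show x * (1 : E₁) ^ k = x
      rw [one_zpow, mul_one]
  have hb₂ : Function.Bijective f₂ := by
    refine ⟨(injective_iff_map_eq_one f₂).2 ?_, fun y => ?_⟩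
    · rintro ⟨⟨⟨x, y⟩, hxy⟩, hh⟩ (e : y = 1)
      subst e
      obtain ⟨j, rfl⟩ := Subgroup.mem_zpowers_iff.1 ((hk₁ x).1 ((show π₁ x = π₂ 1 from hxy).trans (map_one π₂)))
      have haj : (⟨(z₁ ^ j, 1), hxy⟩ : ↥P) = a ^ j := Subtype.ext (Prod.ext rfl (one_zpow j).symm)
      rw [haj] at hh
      exact Subtype.ext (haj.trans (hapow j hh))
    · obtain ⟨x, hx⟩ := hs₁ (π₂ y)
      obtain ⟨k, hk⟩ := hcover ⟨(x, y), hx⟩
      refine ⟨⟨_, hk⟩, ?_⟩
      show y * ((1 : E₂) ^ k)⁻¹ = y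
      rw [one_zpow, inv_one, mul_one]
  exact ⟨(MulEquiv.ofBijective f₁ hb₁).symm.trans (MulEquiv.ofBijective f₂ hb₂)⟩

/-- Symplectic coordinates for a nondegenerate alternating form given as a function. -/
theorem exists_coordinates {F V : Type*} [Field F] [Finite F] [AddCommGroup V] [Module F V] [Finite V]
    (B : V → V → F) (hl : ∀ u u' v, B (u + u') v = B u v + B u' v)
    (hls : ∀ (c : F) u v, B (c • u) v = c * B u v)
    (hr : ∀ u v v', B u (v + v') = B u v + B u v') (hrs : ∀ (c : F) u v, B u (c • v) = c * B u v)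
    (halt : ∀ u, B u u = 0) (hnd : ∀ u, (∀ v, B u v = 0) → u = 0) :
    ∃ (n : ℕ) (e : V ≃+ (Fin n ⊕ Fin n → F)), Nat.card V = Nat.card F ^ (2 * n) ∧
      ∀ u v, B u v = ∑ i : Fin n, (e u (.inl i) * e v (.inr i) - e u (.inr i) * e v (.inl i)) := by
  let Bl : LinearMap.BilinForm F V := LinearMap.mk₂ F B hl hls hr hrs
  haveI : Module.Finite F V := Module.Finite.of_finite
  have hA : Bl.IsAlt := halt
  obtain ⟨n, b, hn, hef, hee, hff⟩ := LinAlg.Witt.exists_symplectic_basis Bl hA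
    (LinearMap.ker_eq_bot'.2 fun u hu => hnd u fun v => LinearMap.congr_fun hu v)
  have hfe : ∀ i j, Bl (b (.inr i)) (b (.inl j)) = -(if i = j then 1 else 0) := fun i j => by
    rw [← LinearMap.IsAlt.neg hA (b (.inl j)) (b (.inr i)), hef]
    exact congrArg _ (if_congr eq_comm rfl rfl)
  refine ⟨n, b.equivFun.toAddEquiv, by rw [Module.natCard_eq_pow_finrank (K := F), hn], fun u v => ?_⟩
  show Bl u v = _
  conv_lhs => rw [← b.sum_equivFun u, ← b.sum_equivFun v]
  simp [Fintype.sum_sum_type, map_sum, LinearMap.sum_apply, hef, hee, hff, hfe, Finset.sum_add_distrib,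
    Finset.sum_sub_distrib, -Module.Basis.equivFun_apply, mul_comm, sub_eq_add_neg, Finset.sum_neg_distrib]

/-- Symplectic coordinates on an extraspecial `p`-group with all `p`-th powers trivial modulo the centre. -/
theorem exists_frame {E : Type*} [Group E] [Finite E] (hE : IsExtraspecial p E)
    (hpow : ∀ x : E, x ^ p ∈ Subgroup.center E) :
    ∃ (n : ℕ) (z : E) (π : E →* Multiplicative (Vp p n)), Function.Surjective π ∧ orderOf z = p ∧
      (∀ x, π x = 1 ↔ x ∈ Subgroup.zpowers z) ∧ Nat.card E = p ^ (2 * n + 1) ∧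
      ∀ x y, ⁅x, y⁆ = zp z (sb n (π x).toAdd (π y).toAdd) := by
  classical
  have hp : p.Prime := Fact.out
  haveI : Nontrivial ↥(Subgroup.center E) :=
    Finite.one_lt_card_iff_nontrivial.1 (by rw [hE.2]; exact hp.one_lt)
  obtain ⟨⟨z, hzc⟩, hz1⟩ := exists_ne (1 : ↥(Subgroup.center E))
  have hzp : z ^ p = 1 := by
    have := congrArg Subtype.val (pow_card_eq_one' (x := (⟨z, hzc⟩ : ↥(Subgroup.center E))))
    rwa [hE.2] at this
  have ho : orderOf z = p := orderOf_eq_prime hzp fun e => hz1 (Subtype.ext e)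
  have hzpc : Subgroup.zpowers z = Subgroup.center E :=
    Subgroup.eq_of_le_of_card_ge (Subgroup.zpowers_le.2 hzc) (by rw [Nat.card_zpowers, ho, hE.2])
  have hcm : ∀ a b : E, ⁅a, b⁆ ∈ Subgroup.center E := fun a b =>
    hE.1.2.2 ▸ Subgroup.commutator_mem_commutator (Subgroup.mem_top a) (Subgroup.mem_top b)
  have hlog : ∀ c ∈ Subgroup.center E, ∃ a : ZMod p, c = zp z a := by
    intro c hc
    rw [← hzpc] at hc
    obtain ⟨k, rfl⟩ := (Subgroup.mem_zpowers_iff.1 hc)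
    refine ⟨((k % (p : ℤ)).toNat : ℕ), ?_⟩
    rw [pow_zp hzp, ← zpow_natCast, Int.toNat_of_nonneg (Int.emod_nonneg _ (by exact_mod_cast hp.ne_zero)),
      ← ho, zpow_mod_orderOf]
  choose L hL using hlog
  let cm : E → E → ZMod p := fun x y => L _ (hcm x y)
  have hcmz : ∀ x y, ⁅x, y⁆ = zp z (cm x y) := fun x y => hL _ (hcm x y)
  have cm_left : ∀ x x' y, cm (x * x') y = cm x y + cm x' y := fun x x' y => zp_injective ho (by
    rw [zp_add hzp, ← hcmz, ← hcmz, ← hcmz, PGroup.commutatorElement_mul_left' hcm])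
  have cm_right : ∀ x y y', cm x (y * y') = cm x y + cm x y' := fun x y y' => zp_injective ho (by
    rw [zp_add hzp, ← hcmz, ← hcmz, ← hcmz, PGroup.commutatorElement_mul_right' hcm])
  have cm_central : ∀ x, ∀ c ∈ Subgroup.center E, cm x c = 0 ∧ cm c x = 0 := fun x c hc =>
    ⟨zp_injective ho (by
      rw [← hcmz, zp, ZMod.val_zero, pow_zero, commutatorElement_eq_one_iff_mul_comm]
      exact Subgroup.mem_center_iff.1 hc x),
    zp_injective ho (by
      rw [← hcmz, zp, ZMod.val_zero, pow_zero, commutatorElement_eq_one_iff_mul_comm]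
      exact (Subgroup.mem_center_iff.1 hc x).symm)⟩
  letI : CommGroup (E ⧸ Subgroup.center E) :=
    { (inferInstance : Group (E ⧸ Subgroup.center E)) with
      mul_comm := by
        intro x y
        induction x using QuotientGroup.induction_on with
        | _ x =>
        induction y using QuotientGroup.induction_on with
        | _ y =>
        rw [← QuotientGroup.mk_mul, ← QuotientGroup.mk_mul, QuotientGroup.eq]
        simpa [commutatorElement_def, mul_assoc] using hcm y⁻¹ x⁻¹ }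
  letI : Module (ZMod p) (Additive (E ⧸ Subgroup.center E)) := AddCommGroup.zmodModule (fun x => by
    obtain ⟨a, ha⟩ := QuotientGroup.mk_surjective (Additive.toMul x)
    apply Additive.toMul.injective
    rw [toMul_nsmul, toMul_zero, ← ha, ← QuotientGroup.mk_pow]
    exact (QuotientGroup.eq_one_iff _).2 (hpow a))
  let pr : E → Additive (E ⧸ Subgroup.center E) := fun x => Additive.ofMul (x : E ⧸ Subgroup.center E)
  let rep : Additive (E ⧸ Subgroup.center E) → E := fun v => (Additive.toMul v).out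
  have prrep : ∀ v, pr (rep v) = v := fun v =>
    congrArg Additive.ofMul (QuotientGroup.out_eq' (Additive.toMul v))
  have hrep : ∀ x : E, ∃ c ∈ Subgroup.center E, rep (pr x) = x * c := fun x =>
    ⟨x⁻¹ * rep (pr x), QuotientGroup.eq.1 (QuotientGroup.out_eq' (x : E ⧸ Subgroup.center E)).symm, by group⟩
  let B : Additive (E ⧸ Subgroup.center E) → Additive (E ⧸ Subgroup.center E) → ZMod p :=
    fun u v => cm (rep u) (rep v)
  have hB : ∀ x y, B (pr x) (pr y) = cm x y := by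
    intro x y
    obtain ⟨c, hc, e⟩ := hrep x
    obtain ⟨c', hc', e'⟩ := hrep y
    simp only [B, e, e', cm_left, cm_right, (cm_central _ c hc).2, (cm_central _ c' hc').1, add_zero]
  have pr_mul : ∀ x y, pr (x * y) = pr x + pr y := fun x y => rfl
  have B_left : ∀ u u' v, B (u + u') v = B u v + B u' v := by
    intro u u' v
    rw [← prrep u, ← prrep u', ← prrep v, ← pr_mul, hB, hB, hB, cm_left]
  have B_right : ∀ u v v', B u (v + v') = B u v + B u v' := by
    intro u v v'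
    rw [← prrep u, ← prrep v, ← prrep v', ← pr_mul, hB, hB, hB, cm_right]
  have B_smul_left : ∀ (c : ZMod p) u v, B (c • u) v = c • B u v := fun c u v =>
    ZMod.map_smul (AddMonoidHom.mk' (fun w => B w v) fun a b => B_left a b v) c u
  have B_smul_right : ∀ (c : ZMod p) u v, B u (c • v) = c • B u v := fun c u v =>
    ZMod.map_smul (AddMonoidHom.mk' (B u) (B_right u)) c v
  have halt : ∀ u, B u u = 0 := fun u => zp_injective ho (by
    show zp z (cm (rep u) (rep u)) = _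
    rw [← hcmz, commutatorElement_self, zp, ZMod.val_zero, pow_zero])
  have hnd : ∀ u, (∀ v, B u v = 0) → u = 0 := by
    intro u hu
    rw [← prrep u]
    apply Additive.toMul.injective
    refine (QuotientGroup.eq_one_iff _).2 (Subgroup.mem_center_iff.2 fun g => ?_)
    have h0 : cm (rep u) g = 0 := by
      rw [← hB, prrep]; exact hu (pr g)
    have := hcmz (rep u) g
    rw [h0, zp, ZMod.val_zero, pow_zero, commutatorElement_eq_one_iff_mul_comm] at this
    exact this.symm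
  obtain ⟨n, e, hn, hBsb⟩ := exists_coordinates B B_left B_smul_left B_right B_smul_right halt hnd
  have hcard : Nat.card E = p ^ (2 * n + 1) := by
    rw [Subgroup.card_eq_card_quotient_mul_card_subgroup (Subgroup.center E), hE.2, pow_succ,
      Nat.card_congr (Additive.ofMul : E ⧸ Subgroup.center E ≃ _), hn, Nat.card_zmod]
  let π : E →* Multiplicative (Vp p n) :=
    MonoidHom.mk' (fun x => Multiplicative.ofAdd (e (pr x))) fun x y => by
      rw [pr_mul, map_add, ofAdd_add]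
  refine ⟨n, z, π, fun v => ⟨rep (e.symm v.toAdd), ?_⟩, ho, fun x => ?_, hcard, fun x y => ?_⟩
  · show Multiplicative.ofAdd (e (pr (rep _))) = v
    rw [prrep, e.apply_symm_apply, ofAdd_toAdd]
  · show Multiplicative.ofAdd (e (pr x)) = 1 ↔ _
    rw [ofAdd_eq_one, map_eq_zero_iff e e.injective, hzpc]
    exact QuotientGroup.eq_one_iff x
  · show _ = zp z (sb n (e (pr x)) (e (pr y)))
    rw [sb, ← hBsb, hB, ← hcmz]

end CfsgLib.ExtraspecialOdd
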