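import Mathlib
import Cfsg.Agent.Eq.Def_Transfer
import Cfsg.Agent.PGroup.Extraspecial

/-!
The Heisenberg groups of exponent `p` inside the general linear group.
-/

set_option autoImplicit false

namespace CfsgLib.ExtraspecialOdd

open Cfsg
open scoped commutatorElement Matrix

/-- The Heisenberg group of dimension `2 n + 1` over `ZMod p`. -/
@[ext]
structure Heis (p n : ℕ) where
  /-- Row part. -/
  row : Fin n → ZMod p
  /-- Column part. -/
  col : Fin n → ZMod p
  /-- Central part. -/
  mid : ZMod p

namespace Heis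

variable {p n : ℕ}

instance : Mul (Heis p n) := ⟨fun x y => ⟨x.row + y.row, x.col + y.col, x.mid + y.mid + x.row ⬝ᵥ y.col⟩⟩
instance : One (Heis p n) := ⟨⟨0, 0, 0⟩⟩
instance : Inv (Heis p n) := ⟨fun x => ⟨-x.row, -x.col, -x.mid + x.row ⬝ᵥ x.col⟩⟩

@[simp] theorem mul_row (x y : Heis p n) : (x * y).row = x.row + y.row := rfl
@[simp] theorem mul_col (x y : Heis p n) : (x * y).col = x.col + y.col := rfl
@[simp] theorem mul_mid (x y : Heis p n) : (x * y).mid = x.mid + y.mid + x.row ⬝ᵥ y.col := rfl
@[simp] theorem one_row : (1 : Heis p n).row = 0 := rfl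
@[simp] theorem one_col : (1 : Heis p n).col = 0 := rfl
@[simp] theorem one_mid : (1 : Heis p n).mid = 0 := rfl
@[simp] theorem inv_row (x : Heis p n) : x⁻¹.row = -x.row := rfl
@[simp] theorem inv_col (x : Heis p n) : x⁻¹.col = -x.col := rfl
@[simp] theorem inv_mid (x : Heis p n) : x⁻¹.mid = -x.mid + x.row ⬝ᵥ x.col := rfl

instance instGroup : Group (Heis p n) := Group.ofLeftAxioms
  (fun a b c => by
    ext
    · simp [add_assoc]
    · simp [add_assoc]
    · simp [add_dotProduct, dotProduct_add]; ring)
  (fun a => by ext <;> simp)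
  (fun a => by
    ext
    · simp
    · simp
    · simp [neg_dotProduct])

/-- Coordinates as a product. -/
def equivProd : Heis p n ≃ (Fin n → ZMod p) × (Fin n → ZMod p) × ZMod p :=
  ⟨fun x => (x.row, x.col, x.mid), fun t => ⟨t.1, t.2.1, t.2.2⟩, fun _ => rfl, fun _ => rfl⟩

variable [Fact p.Prime]

instance : Finite (Heis p n) := Finite.of_equiv _ equivProd.symm

theorem card : Nat.card (Heis p n) = p ^ (1 + 2 * n) := by
  rw [Nat.card_congr equivProd]
  simp only [Nat.card_prod, Nat.card_fun, Nat.card_zmod, Nat.card_fin]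
  ring

theorem mem_center {x : Heis p n} : x ∈ Subgroup.center (Heis p n) ↔ x.row = 0 ∧ x.col = 0 := by
  rw [Subgroup.mem_center_iff]
  constructor
  · intro h
    constructor
    · funext i
      have := congrArg Heis.mid (h ⟨0, Pi.single i 1, 0⟩)
      simpa [dotProduct_single] using this.symm
    · funext i
      have := congrArg Heis.mid (h ⟨Pi.single i 1, 0, 0⟩)
      simpa [single_dotProduct] using this
  · rintro ⟨h1, h2⟩ y
    ext
    · simp [h1]
    · simp [h2]
    · simp [h1, h2, add_comm]

theorem pow_eq (x : Heis p n) (k : ℕ) :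
    x ^ k = ⟨k • x.row, k • x.col, k • x.mid + k.choose 2 • (x.row ⬝ᵥ x.col)⟩ := by
  induction k with
  | zero => ext <;> simp
  | succ k ih =>
    rw [pow_succ, ih]
    ext
    · simp only [mul_row, add_smul, one_smul]
    · simp only [mul_col, add_smul, one_smul]
    · simp only [mul_mid, smul_dotProduct, Nat.choose_succ_succ', Nat.choose_one_right, add_smul,
        one_smul]
      abel

theorem pow_prime (hp : p ≠ 2) (x : Heis p n) : x ^ p = 1 := by
  have h2 : ((p.choose 2 : ℕ) : ZMod p) = 0 := by
    rw [ZMod.natCast_eq_zero_iff]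
    exact PGroup.dvd_choose_two_of_odd ((Fact.out : p.Prime).odd_of_ne_two hp)
  rw [pow_eq]
  ext <;> simp [h2]

theorem isExtraspecial (hp : p ≠ 2) (hn : 1 ≤ n) : IsExtraspecial p (Heis p n) := by
  refine PGroup.isExtraspecial_of (IsPGroup.iff_card.2 ⟨_, card⟩) ?_ ?_ (fun a b => mem_center.2 ?_)
    (fun a => by rw [pow_prime hp]; exact Subgroup.one_mem _)
  · let e : ↥(Subgroup.center (Heis p n)) ≃ ZMod p :=
      { toFun := fun x => x.1.mid
        invFun := fun t => ⟨⟨0, 0, t⟩, mem_center.2 ⟨rfl, rfl⟩⟩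
        left_inv := fun x => Subtype.ext (Heis.ext (mem_center.1 x.2).1.symm (mem_center.1 x.2).2.symm rfl)
        right_inv := fun _ => rfl }
    rw [Nat.card_congr e, Nat.card_zmod]
  · refine ⟨⟨Pi.single ⟨0, hn⟩ 1, 0, 0⟩, ⟨0, Pi.single ⟨0, hn⟩ 1, 0⟩, fun h => ?_⟩
    have := congrArg Heis.mid h
    simp at this
  · constructor <;> simp [commutatorElement_def]

/-- The block matrix of an element. -/
def toBlock (x : Heis p n) : Matrix (Unit ⊕ (Fin n ⊕ Unit)) (Unit ⊕ (Fin n ⊕ Unit)) (ZMod p) :=
  Matrix.fromBlocks 1 (Matrix.of fun _ => Sum.elim x.row fun _ => x.mid) 0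
    (Matrix.fromBlocks 1 (Matrix.of fun i _ => x.col i) 0 1)

theorem toBlock_mul (x y : Heis p n) : toBlock (x * y) = toBlock x * toBlock y := by
  simp only [toBlock, Matrix.fromBlocks_multiply, Matrix.one_mul, Matrix.mul_one, Matrix.zero_mul,
    Matrix.mul_zero, add_zero, zero_add]
  congr 1
  · ext i j
    rcases j with j | j
    · simp [Matrix.mul_apply, Fintype.sum_sum_type, Matrix.fromBlocks, Matrix.one_apply, add_comm]
    · simp [Matrix.mul_apply, Fintype.sum_sum_type, Matrix.fromBlocks, Matrix.one_apply, dotProduct]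
      ring
  · congr 1
    ext i j
    simp [add_comm]

theorem toBlock_one : toBlock (1 : Heis p n) = 1 := by
  simp only [toBlock, ← Matrix.fromBlocks_one]
  congr 1
  · ext i j; rcases j with j | j <;> simp

theorem toBlock_injective : Function.Injective (toBlock (p := p) (n := n)) := fun x y h =>
  Heis.ext (funext fun i => congrFun (congrFun h (.inl ())) (.inr (.inl i)))
    (funext fun i => congrFun (congrFun h (.inr (.inl i))) (.inr (.inr ())))
    (congrFun (congrFun h (.inl ())) (.inr (.inr ())))

/-- The embedding in the general linear group. -/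
noncomputable def toGL : Heis p n →* Matrix.GeneralLinearGroup (Fin (n + 2)) (ZMod p) :=
  let e : Unit ⊕ (Fin n ⊕ Unit) ≃ Fin (n + 2) := Fintype.equivFinOfCardEq (by simp; omega)
  ((Matrix.reindexAlgEquiv (ZMod p) (ZMod p) e).toRingEquiv.toMonoidHom.comp
    { toFun := toBlock, map_one' := toBlock_one, map_mul' := toBlock_mul }).toHomUnits

theorem toGL_injective : Function.Injective (toGL (p := p) (n := n)) := fun _ _ h =>
  toBlock_injective ((Matrix.reindexAlgEquiv (ZMod p) (ZMod p) _).injective (congrArg Units.val h))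

end Heis

end CfsgLib.ExtraspecialOdd
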