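import Mathlib
import Cfsg.Agent.ExtraspecialOdd.Frame
import Cfsg.Agent.PGroup.Extraspecial
import Cfsg.Agent.Fus.EssentialRankTwo
import Cfsg.Agent.SL2.Basic
import Cfsg.Agent.Dickson.FewPoints
import Cfsg.Agent.Dickson.Finite

/-!
A Sylow subgroup extraspecial of order `p³` and exponent `p`: each rank two subgroup whose automorphism
group contains `SL₂(p)` gives a torus in the normalizer of the Sylow subgroup fixing the corresponding line,
and a group of order prime to `p` cannot fix many lines in this way.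
-/

set_option autoImplicit false

namespace CfsgLib.ExtraspecialOdd.Radical

open Matrix
open scoped MatrixGroups commutatorElement

variable {p : ℕ} [Fact p.Prime]

noncomputable local instance decEqClosure : DecidableEq (AlgebraicClosure (ZMod p)) := Classical.decEq _

/-- Coordinates on an extraspecial group of order `p³` and exponent `p`. -/
structure Coord (p : ℕ) [Fact p.Prime] (E : Type*) [Group E] where
  z : E
  cor : E → (Fin 2 → ZMod p)
  cor_mul : ∀ x y, cor (x * y) = cor x + cor y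
  cor_surj : Function.Surjective cor
  cor_eq_zero : ∀ x, cor x = 0 ↔ x ∈ Subgroup.zpowers z
  ord : orderOf z = p
  center_eq : Subgroup.center E = Subgroup.zpowers z
  comm : ∀ x y, ⁅x, y⁆ = zp z (cor x 0 * cor y 1 - cor x 1 * cor y 0)
  exp : ∀ x : E, x ^ p = 1

theorem nonempty_coord {E : Type*} [Group E] [Finite E] (hE : Cfsg.IsExtraspecial p E)
    (hcard : Nat.card E = p ^ 3) (hexp : ∀ x : E, x ^ p = 1) : Nonempty (Coord p E) := by
  have hp : p.Prime := Fact.out
  obtain ⟨n, z, π, hs, ho, hk, hc, hcomm⟩ :=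
    exists_frame hE fun x => by rw [hexp x]; exact Subgroup.one_mem _
  have hn : n = 1 := by
    have := Nat.pow_right_injective hp.two_le (hcard.symm.trans hc)
    omega
  subst hn
  refine ⟨{ z := z, cor := fun x => ![(π x).toAdd (.inl 0), (π x).toAdd (.inr 0)], cor_mul := ?_,
            cor_surj := ?_, cor_eq_zero := ?_, ord := ho, center_eq := ?_, comm := ?_, exp := hexp }⟩
  · intro x y
    rw [map_mul, toAdd_mul]
    ext i
    fin_cases i <;> simp
  · intro v
    obtain ⟨x, hx⟩ := hs (Multiplicative.ofAdd fun i => Sum.elim (fun _ => v 0) (fun _ => v 1) i)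
    refine ⟨x, ?_⟩
    ext i
    fin_cases i <;> simp [hx]
  · intro x
    rw [← hk]
    constructor
    · intro h
      refine Multiplicative.toAdd.injective (funext fun i => ?_)
      have h0 := congrFun h 0
      have h1 := congrFun h 1
      rcases i with i | i <;> fin_cases i
      · simpa using h0
      · simpa using h1
    · intro h
      ext i
      fin_cases i <;> simp [h]
  · have hzc : z ∈ Subgroup.center E := Subgroup.mem_center_iff.2 fun x => by
      rw [← commutatorElement_eq_one_iff_mul_comm, hcomm, (hk z).2 (Subgroup.mem_zpowers z)]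
      simp [sb, zp]
    exact (Subgroup.eq_of_le_of_card_ge (Subgroup.zpowers_le.2 hzc)
      (by rw [hE.2, Nat.card_zpowers, ho])).symm
  · intro x y
    rw [hcomm]
    simp [sb]

namespace Coord

variable {E : Type*} [Group E] (C : Coord p E)

theorem cor_one : C.cor 1 = 0 := (C.cor_eq_zero 1).2 (one_mem _)

theorem cor_inv (x : E) : C.cor x⁻¹ = -C.cor x := by
  rw [eq_neg_iff_add_eq_zero, ← C.cor_mul, inv_mul_cancel, C.cor_one]

theorem cor_pow (x : E) (n : ℕ) : C.cor (x ^ n) = n • C.cor x := by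
  induction n with
  | zero => rw [pow_zero, zero_smul, C.cor_one]
  | succ n ih => rw [pow_succ, C.cor_mul, ih, succ_nsmul]

theorem z_mem_center : C.z ∈ Subgroup.center E := C.center_eq.symm ▸ Subgroup.mem_zpowers C.z

theorem commute_iff {x y : E} : x * y = y * x ↔ C.cor x 0 * C.cor y 1 - C.cor x 1 * C.cor y 0 = 0 := by
  rw [← commutatorElement_eq_one_iff_mul_comm, C.comm]
  constructor
  · intro h
    exact zp_injective C.ord (h.trans (by simp [zp]))
  · intro h
    simp [h, zp]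

theorem conj_mul_inv_mem (x y : E) : y * x * y⁻¹ * x⁻¹ ∈ Subgroup.zpowers C.z := by
  have h : y * x * y⁻¹ * x⁻¹ = ⁅y, x⁆ := rfl
  rw [h, C.comm]
  exact ⟨_, zpow_natCast _ _⟩

theorem not_mem_center {x : E} (hx : C.cor x ≠ 0) : x ∉ Subgroup.center E := fun h =>
  hx ((C.cor_eq_zero x).2 (C.center_eq ▸ h))

/-- A section of the coordinates. -/
noncomputable def sect (v : Fin 2 → ZMod p) : E := Function.surjInv C.cor_surj v

theorem cor_sect (v : Fin 2 → ZMod p) : C.cor (C.sect v) = v := Function.surjInv_eq C.cor_surj v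

/-- The matrix of an automorphism on the coordinates. -/
noncomputable def mat (α : MulAut E) : Matrix (Fin 2) (Fin 2) (ZMod p) :=
  Matrix.of fun i j => C.cor (α (C.sect (Pi.single j 1))) i

theorem cor_apply (α : MulAut E) (x : E) : C.cor (α x) = C.mat α *ᵥ C.cor x := by
  set a := C.cor x 0
  set b := C.cor x 1
  set y := x⁻¹ * (C.sect (Pi.single 0 1) ^ a.val * C.sect (Pi.single 1 1) ^ b.val) with hy
  have hy0 : C.cor y = 0 := by
    rw [hy, C.cor_mul, C.cor_mul, C.cor_inv, C.cor_pow, C.cor_pow, C.cor_sect, C.cor_sect]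
    ext i
    fin_cases i <;> simp [a, b, nsmul_eq_mul, -ZMod.natCast_val, ZMod.natCast_zmod_val]
  have hαy : C.cor (α y) = 0 := by
    rw [C.cor_eq_zero, ← C.center_eq]
    have hc : y ∈ Subgroup.center E := C.center_eq.symm ▸ (C.cor_eq_zero y).1 hy0
    refine Subgroup.mem_center_iff.2 fun w => ?_
    obtain ⟨w, rfl⟩ := α.surjective w
    rw [← map_mul, ← map_mul, Subgroup.mem_center_iff.1 hc w]
  rw [hy, map_mul, map_inv, map_mul, map_pow, map_pow, C.cor_mul, C.cor_mul, C.cor_inv, C.cor_pow,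
    C.cor_pow, neg_add_eq_zero] at hαy
  rw [hαy]
  ext i
  fin_cases i <;> simp [mat, Matrix.mulVec, dotProduct, Fin.sum_univ_two, a, b, mul_comm, -ZMod.natCast_val, ZMod.natCast_zmod_val]

/-- The action on the coordinates. -/
noncomputable def matHom : MulAut E →* Matrix (Fin 2) (Fin 2) (ZMod p) where
  toFun := C.mat
  map_one' := Matrix.ext_iff_mulVec.2 fun v => by
    obtain ⟨x, rfl⟩ := C.cor_surj v
    rw [← C.cor_apply, Matrix.one_mulVec]
    rfl
  map_mul' α β := Matrix.ext_iff_mulVec.2 fun v => by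
    obtain ⟨x, rfl⟩ := C.cor_surj v
    rw [← C.cor_apply, ← Matrix.mulVec_mulVec, ← C.cor_apply, ← C.cor_apply]
    rfl

theorem mat_conj (y : E) : C.mat (MulAut.conj y) = 1 := Matrix.ext_iff_mulVec.2 fun v => by
  obtain ⟨x, rfl⟩ := C.cor_surj v
  rw [← C.cor_apply, Matrix.one_mulVec, MulAut.conj_apply, C.cor_mul, C.cor_mul, C.cor_inv]
  abel

theorem det_mat (α : MulAut E) {l : ZMod p} (hα : α C.z = zp C.z l) : (C.mat α).det = l := by
  set x := C.sect (Pi.single 0 1)
  set y := C.sect (Pi.single 1 1)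
  have h1 : α ⁅x, y⁆ = ⁅α x, α y⁆ := map_commutatorElement α x y
  rw [C.comm, C.comm, C.cor_sect, C.cor_sect] at h1
  have e : (Pi.single 0 1 : Fin 2 → ZMod p) 0 * (Pi.single 1 1 : Fin 2 → ZMod p) 1 -
      (Pi.single 0 1 : Fin 2 → ZMod p) 1 * (Pi.single 1 1 : Fin 2 → ZMod p) 0 = 1 := by simp
  rw [e, show zp C.z (1 : ZMod p) = C.z by simp [zp, ZMod.val_one], hα] at h1
  rw [Matrix.det_fin_two]
  exact ((zp_injective C.ord h1).trans (by simp [mat, x, y, mul_comm])).symm

end Coord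

variable {G : Type*} [Group G] {P : Subgroup G}

/-- The rank two subgroup through an element. -/
def planeOf (a : P) : Subgroup G := (Subgroup.centralizer ({a} : Set P)).map P.subtype

theorem mem_planeOf {a : P} {x : P} : (x : G) ∈ planeOf a ↔ x * a = a * x := by
  rw [planeOf, ← Subgroup.mem_centralizer_singleton_iff]
  exact ⟨fun ⟨y, hy, hyx⟩ => Subtype.ext hyx ▸ hy, fun h => ⟨x, h, rfl⟩⟩

/-- A torus in the normalizer of `P` acting on the plane through `a` as diagonal matrices of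
determinant one. -/
def HasTorus (C : Coord p P) (a : P) : Prop :=
  ∀ l : (ZMod p)ˣ, ∃ n : Subgroup.normalizer (P : Set G),
    (P.normalizerMonoidHom n) C.z = zp C.z (l : ZMod p) ∧
    C.cor ((P.normalizerMonoidHom n) a) = ((l⁻¹ : (ZMod p)ˣ) : ZMod p) • C.cor a

/-- `SL₂(p)` is induced on the plane through `a`, in coordinates starting with `z` and `a`. -/
def HasSL (C : Coord p P) (a : P) : Prop :=
  ∃ c : Multiplicative (Fin 2 → ZMod p) ≃* planeOf a,
    (∀ v : Fin 2 → ZMod p, ((c (Multiplicative.ofAdd v) : planeOf a) : G) =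
      (C.z : G) ^ (v 0).val * (a : G) ^ (v 1).val) ∧
    ∀ s, CfsgLib.Fus.EssentialRankTwo.slAction c s ∈ (planeOf a).normalizerMonoidHom.range

theorem normalizer_apply (n : Subgroup.normalizer (P : Set G)) (x : P) :
    ((P.normalizerMonoidHom n x : P) : G) = (n : G) * x * (n : G)⁻¹ := rfl

variable [Finite G]

theorem exists_plane_coord (hE : Cfsg.IsExtraspecial p P) (hcard : Nat.card P = p ^ 3) (C : Coord p P)
    {a : P} (ha : C.cor a ≠ 0) :
    (∀ x y : planeOf a, x * y = y * x) ∧ Nat.card (planeOf a) = p ^ 2 ∧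
    ∃ c : Multiplicative (Fin 2 → ZMod p) ≃* planeOf a,
      ∀ v : Fin 2 → ZMod p, ((c (Multiplicative.ofAdd v) : planeOf a) : G) =
        (C.z : G) ^ (v 0).val * (a : G) ^ (v 1).val := by
  have hp : p.Prime := Fact.out
  have hi := CfsgLib.PGroup.extraspecial_centralizer_index hE (C.not_mem_center ha)
  have hc := (Subgroup.centralizer ({a} : Set P)).card_mul_index
  rw [hi, hcard] at hc
  have hA : Nat.card (planeOf a) = p ^ 2 := by
    rw [planeOf, Subgroup.card_map_of_injective Subtype.val_injective]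
    exact Nat.eq_of_mul_eq_mul_right hp.pos (hc.trans (pow_succ p 2))
  haveI := IsPGroup.isMulCommutative_of_card_eq_prime_sq hA
  have hcomm : ∀ x y : planeOf a, x * y = y * x := fun x y => mul_comm' x y
  refine ⟨hcomm, hA, ?_⟩
  have hz : (C.z : G) ∈ planeOf a :=
    mem_planeOf.2 (Subgroup.mem_center_iff.1 C.z_mem_center a).symm
  have haA : (a : G) ∈ planeOf a := mem_planeOf.2 rfl
  have hexp : ∀ x : planeOf a, x ^ p = 1 := by
    rintro ⟨_, y, -, rfl⟩
    exact Subtype.ext (congrArg (fun w : P => (w : G)) (C.exp y))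
  obtain ⟨c, hc'⟩ := CfsgLib.Fus.EssentialRankTwo.exists_coord hcomm hexp hA
    (e₁ := ⟨C.z, hz⟩) (e₂ := ⟨a, haA⟩) (fun h => hp.ne_one (by
      rw [← C.ord, orderOf_eq_one_iff]
      exact Subtype.ext (congrArg (fun w : planeOf a => (w : G)) h)))
    (fun h => ha (by
      obtain ⟨i, hi⟩ := h
      refine (C.cor_eq_zero a).2 ⟨i, Subtype.ext ?_⟩
      exact congrArg (fun w : planeOf a => (w : G)) hi))
  exact ⟨c, fun v => by rw [hc']; rfl⟩

/-- From `SL₂(p)` on a plane to a torus in the normalizer of the Sylow subgroup. -/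
theorem hasTorus_of_hasSL (S : Sylow p G) (hSP : (S : Subgroup G) = P) (C : Coord p P) {a : P}
    (ha : C.cor a ≠ 0) (h : HasSL C a) : HasTorus C a := by
  obtain ⟨c, hc, hsl⟩ := h
  intro l
  obtain ⟨g, hg⟩ := hsl (CfsgLib.SL2.d l)
  have hgv : ∀ v : Fin 2 → ZMod p, (g : G) * ((C.z : G) ^ (v 0).val * (a : G) ^ (v 1).val) * (g : G)⁻¹ =
      (C.z : G) ^ ((l : ZMod p) * v 0).val * (a : G) ^ (((l⁻¹ : (ZMod p)ˣ) : ZMod p) * v 1).val := by
    intro v
    rw [← hc v]
    have h1 : ((((planeOf a).normalizerMonoidHom g) (c (Multiplicative.ofAdd v)) : planeOf a) : G) =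
        (g : G) * (c (Multiplicative.ofAdd v) : planeOf a) * (g : G)⁻¹ := rfl
    rw [← h1, hg, CfsgLib.Fus.EssentialRankTwo.slAction_apply, hc]
    simp only [CfsgLib.SL2.coe_d, Matrix.mulVec, dotProduct, Fin.sum_univ_two, Matrix.of_apply,
      Matrix.cons_val_zero, Matrix.cons_val_one, zero_mul, add_zero, zero_add]
  have hgz : (g : G) * C.z * (g : G)⁻¹ = (C.z : G) ^ (l : ZMod p).val := by
    have h1 := hgv ![1, 0]
    simp only [Matrix.cons_val_zero, Matrix.cons_val_one, mul_one, mul_zero, ZMod.val_one, ZMod.val_zero, pow_zero, pow_one, one_mul, Units.mul_inv, Units.inv_mul] at h1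
    exact h1
  have hga : (g : G) * a * (g : G)⁻¹ = (a : G) ^ ((l⁻¹ : (ZMod p)ˣ) : ZMod p).val := by
    have h1 := hgv ![0, 1]
    simp only [Matrix.cons_val_zero, Matrix.cons_val_one, mul_one, mul_zero, ZMod.val_one, ZMod.val_zero, pow_zero, pow_one, one_mul, Units.mul_inv, Units.inv_mul] at h1
    exact h1
  have hga' : (g : G)⁻¹ * a * g = (a : G) ^ (l : ZMod p).val := by
    have h1 := hgv ![0, (l : ZMod p)]
    simp only [Matrix.cons_val_zero, Matrix.cons_val_one, mul_one, mul_zero, ZMod.val_one, ZMod.val_zero, pow_zero, pow_one, one_mul, Units.mul_inv, Units.inv_mul] at h1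
    conv_lhs => rw [← h1]
    group
  have hgz' : (g : G)⁻¹ * C.z * g = (C.z : G) ^ ((l⁻¹ : (ZMod p)ˣ) : ZMod p).val := by
    have h1 := hgv ![((l⁻¹ : (ZMod p)ˣ) : ZMod p), 0]
    simp only [Matrix.cons_val_zero, Matrix.cons_val_one, mul_one, mul_zero, ZMod.val_one, ZMod.val_zero, pow_zero, pow_one, one_mul, Units.mul_inv, Units.inv_mul] at h1
    conv_lhs => rw [← h1]
    group
  set Zg := (Subgroup.zpowers C.z).map P.subtype with hZg
  have hzc : ∀ y ∈ P, ∀ w ∈ Zg, y * w = w * y := by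
    rintro y hy _ ⟨w, hw, rfl⟩
    exact congrArg Subtype.val (Subgroup.mem_center_iff.1 (C.center_eq.symm ▸ hw) ⟨y, hy⟩)
  have hzZ : (C.z : G) ∈ Zg := ⟨C.z, Subgroup.mem_zpowers _, rfl⟩
  have hgw : ∀ w ∈ Zg, (g : G) * w * (g : G)⁻¹ ∈ Zg := by
    rintro _ ⟨w, ⟨i, rfl⟩, rfl⟩
    show (g : G) * ((C.z ^ i : P) : G) * (g : G)⁻¹ ∈ Zg
    rw [Subgroup.coe_zpow, ← conj_zpow, hgz]
    exact Zg.zpow_mem (Zg.pow_mem hzZ _) i
  -- the elements stabilizing the series `1 < Z < A`
  let M : Subgroup G :=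
    { carrier := {m | m * C.z * m⁻¹ = C.z ∧ m * a * m⁻¹ * (a : G)⁻¹ ∈ Zg}
      one_mem' := ⟨by group, by simp⟩
      mul_mem' := by
        rintro x y ⟨hx1, hx2⟩ ⟨hy1, hy2⟩
        refine ⟨by rw [show x * y * C.z * (x * y)⁻¹ = x * (y * C.z * y⁻¹) * x⁻¹ by group, hy1, hx1], ?_⟩
        obtain ⟨w, ⟨i, rfl⟩, hw⟩ := hy2
        have hfix : x * ((C.z ^ i : P) : G) * x⁻¹ = ((C.z ^ i : P) : G) := by
          rw [Subgroup.coe_zpow, ← conj_zpow, hx1]
        rw [show x * y * a * (x * y)⁻¹ * (a : G)⁻¹ =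
          x * (y * a * y⁻¹ * (a : G)⁻¹) * x⁻¹ * (x * a * x⁻¹ * (a : G)⁻¹) by group, ← hw]
        exact mul_mem (by show x * ((C.z ^ i : P) : G) * x⁻¹ ∈ Zg; rw [hfix]; exact ⟨_, ⟨i, rfl⟩, rfl⟩) hx2
      inv_mem' := by
        rintro x ⟨hx1, hx2⟩
        have h1 : x⁻¹ * C.z * x⁻¹⁻¹ = C.z := by
          conv_lhs => rw [← hx1]
          group
        refine ⟨h1, ?_⟩
        obtain ⟨w, ⟨i, rfl⟩, hw⟩ := hx2
        rw [show x⁻¹ * a * x⁻¹⁻¹ * (a : G)⁻¹ = (x⁻¹ * (x * a * x⁻¹ * (a : G)⁻¹) * x⁻¹⁻¹)⁻¹ by group, ← hw]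
        refine inv_mem ?_
        show x⁻¹ * ((C.z ^ i : P) : G) * x⁻¹⁻¹ ∈ Zg
        rw [Subgroup.coe_zpow, ← conj_zpow, h1]
        exact Zg.zpow_mem hzZ i }
  have hPM : P ≤ M := fun y hy => ⟨by rw [hzc y hy _ hzZ]; group,
    ⟨_, C.conj_mul_inv_mem a ⟨y, hy⟩, rfl⟩⟩
  have hgPM : ∀ y ∈ P, (g : G) * y * (g : G)⁻¹ ∈ M := by
    intro y hy
    refine ⟨?_, ?_⟩
    · rw [show (g : G) * y * (g : G)⁻¹ * C.z * ((g : G) * y * (g : G)⁻¹)⁻¹ =
        g * (y * ((g : G)⁻¹ * C.z * g) * y⁻¹) * (g : G)⁻¹ by group, hgz',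
        hzc y hy _ (Zg.pow_mem hzZ _), mul_inv_cancel_right, ← hgz']
      group
    · rw [show (g : G) * y * (g : G)⁻¹ * a * ((g : G) * y * (g : G)⁻¹)⁻¹ * (a : G)⁻¹ =
        g * (y * ((g : G)⁻¹ * a * g) * y⁻¹ * ((g : G)⁻¹ * a * g)⁻¹) * (g : G)⁻¹ by group, hga']
      exact hgw _ ⟨_, C.conj_mul_inv_mem (a ^ (l : ZMod p).val) ⟨y, hy⟩, rfl⟩
  have hgS : ((g : G) • S : Sylow p G).toSubgroup ≤ M := by
    intro x hx
    rw [show ((g : G) • S : Sylow p G).toSubgroup = (S : Subgroup G).map (MulAut.conj (g : G)).toMonoidHom from rfl,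
      hSP, Subgroup.mem_map_equiv, MulAut.conj_symm_apply] at hx
    have := hgPM _ hx
    rwa [show (g : G) * ((g : G)⁻¹ * x * g) * (g : G)⁻¹ = x by group] at this
  obtain ⟨m, hm⟩ := MulAction.exists_smul_eq M (S.subtype (hSP.symm ▸ hPM)) (((g : G) • S).subtype hgS)
  have hmS : ∀ y ∈ P, (g : G)⁻¹ * ((m : G) * y * (m : G)⁻¹) * g ∈ P := by
    intro y hy
    have h1 : (m * ⟨y, hPM hy⟩ * m⁻¹ : M) ∈
        ((m • S.subtype (hSP.symm ▸ hPM) : Sylow p M) : Subgroup M) := by
      rw [show ((m • S.subtype (hSP.symm ▸ hPM) : Sylow p M) : Subgroup M) =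
        ((S.subtype (hSP.symm ▸ hPM) : Sylow p M) : Subgroup M).map (MulAut.conj m).toMonoidHom from rfl]
      exact ⟨⟨y, hPM hy⟩, show y ∈ (S : Subgroup G) by rw [hSP]; exact hy, rfl⟩
    rw [hm] at h1
    have h2 : (m : G) * y * (m : G)⁻¹ ∈ ((g : G) • S : Sylow p G).toSubgroup := h1
    rw [show ((g : G) • S : Sylow p G).toSubgroup = (S : Subgroup G).map (MulAut.conj (g : G)).toMonoidHom from rfl,
      hSP, Subgroup.mem_map_equiv, MulAut.conj_symm_apply] at h2
    exact h2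
  have hn : ((g : G)⁻¹ * m)⁻¹ ∈ Subgroup.normalizer (P : Set G) := by
    refine inv_mem (Subgroup.mem_normalizer_fintype fun y hy => ?_)
    show (g : G)⁻¹ * m * y * ((g : G)⁻¹ * m)⁻¹ ∈ P
    have := hmS y hy
    rwa [show (g : G)⁻¹ * m * y * ((g : G)⁻¹ * m)⁻¹ = (g : G)⁻¹ * ((m : G) * y * (m : G)⁻¹) * g by group]
  obtain ⟨hm1, hm2⟩ : ((m : G)⁻¹) * C.z * ((m : G)⁻¹)⁻¹ = C.z ∧
      (m : G)⁻¹ * a * ((m : G)⁻¹)⁻¹ * (a : G)⁻¹ ∈ Zg := (m⁻¹ : M).2
  refine ⟨⟨_, hn⟩, Subtype.ext ?_, ?_⟩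
  · rw [normalizer_apply]
    calc ((g : G)⁻¹ * m)⁻¹ * C.z * (((g : G)⁻¹ * m)⁻¹)⁻¹
        = (m : G)⁻¹ * ((g : G) * C.z * (g : G)⁻¹) * ((m : G)⁻¹)⁻¹ := by group
      _ = _ := by rw [hgz, ← conj_pow, hm1]; rfl
  · obtain ⟨w, hw, hw'⟩ := hm2
    have hw'' : (m : G)⁻¹ * a * ((m : G)⁻¹)⁻¹ = ((w * a : P) : G) := by
      rw [Subgroup.coe_mul]
      exact (mul_inv_eq_iff_eq_mul.1 hw'.symm)
    have h1 : (P.normalizerMonoidHom ⟨_, hn⟩) a = (w * a) ^ ((l⁻¹ : (ZMod p)ˣ) : ZMod p).val := by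
      refine Subtype.ext ?_
      rw [normalizer_apply, Subgroup.coe_pow, ← hw'', conj_pow, ← hga]
      group
    rw [h1, C.cor_pow, C.cor_mul, (C.cor_eq_zero w).2 hw, zero_add, ← Nat.cast_smul_eq_nsmul (ZMod p),
      ZMod.natCast_zmod_val]

/-- The point of the projective line over the closure given by a nonzero vector. -/
noncomputable def point (v : Fin 2 → ZMod p) (hv : v ≠ 0) : OnePoint (AlgebraicClosure (ZMod p)) :=
  (OnePoint.equivProjectivization (AlgebraicClosure (ZMod p))).symm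
    (Projectivization.mk (AlgebraicClosure (ZMod p))
    (algebraMap (ZMod p) (AlgebraicClosure (ZMod p)) ∘ v)
    (fun h => hv (funext fun i => (algebraMap (ZMod p) (AlgebraicClosure (ZMod p))).injective
      ((congrFun h i).trans (map_zero _).symm))))

theorem point_parallel {v w : Fin 2 → ZMod p} {hv : v ≠ 0} {hw : w ≠ 0} (h : point v hv = point w hw) :
    v 0 * w 1 - v 1 * w 0 = 0 := by
  obtain ⟨t, ht⟩ := (Projectivization.mk_eq_mk_iff' _ _ _ _ _).1
    ((OnePoint.equivProjectivization (AlgebraicClosure (ZMod p))).symm.injective h)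
  apply (algebraMap (ZMod p) (AlgebraicClosure (ZMod p))).injective
  have h0 := congrFun ht 0
  have h1 := congrFun ht 1
  simp at h0 h1
  rw [map_sub, map_mul, map_mul, map_zero, ← h0, ← h1]
  ring

/-- Few planes carry a torus. -/
theorem few_torus (S : Sylow p G) (hSP : (S : Subgroup G) = P) (C : Coord p P)
    (s : Finset (Fin 2 → ZMod p)) (hs0 : ∀ v ∈ s, v ≠ 0)
    (hspar : ∀ v ∈ s, ∀ w ∈ s, v 0 * w 1 - v 1 * w 0 = 0 → v = w)
    (hs : ∀ v ∈ s, ∃ a : P, C.cor a = v ∧ HasTorus C a) :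
    (13 ≤ p → s.card ≤ 12) ∧ (11 ≤ p → p ≠ 13 → s.card ≤ 2) := by
  classical
  have hp : p.Prime := Fact.out
  set K := AlgebraicClosure (ZMod p)
  haveI : CharP K p := charP_of_injective_algebraMap (algebraMap (ZMod p) K).injective p
  let μ : Subgroup.normalizer (P : Set G) →* GL (Fin 2) (ZMod p) :=
    (C.matHom.comp P.normalizerMonoidHom).toHomUnits
  let ψ : Subgroup.normalizer (P : Set G) →* PGL(2, ZMod p) :=
    (Matrix.ProjGenLinGroup.mk).comp μ
  let φ : Subgroup.normalizer (P : Set G) →* PGL(2, K) := CfsgLib.Dickson.toClosure.comp ψ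
  set H := φ.range
  haveI : Finite H := Finite.of_surjective φ.rangeRestrict φ.rangeRestrict_surjective
  have hH : ¬ p ∣ Nat.card H := by
    have hker : P.subgroupOf (Subgroup.normalizer (P : Set G)) ≤ φ.ker := by
      intro y hy
      have hμ : μ y = 1 := by
        refine Units.ext ?_
        show C.mat (P.normalizerMonoidHom y) = 1
        rw [show P.normalizerMonoidHom y = MulAut.conj (⟨y, hy⟩ : P) from MulEquiv.ext fun x => rfl]
        exact C.mat_conj _
      rw [MonoidHom.mem_ker]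
      show CfsgLib.Dickson.toClosure (Matrix.ProjGenLinGroup.mk (μ y)) = 1
      rw [hμ, map_one, map_one]
    rw [← Subgroup.index_ker]
    intro hd
    have h1 := hd.trans (Subgroup.index_dvd_of_le hker)
    have h2 : (P.subgroupOf (Subgroup.normalizer (P : Set G))).index ∣ P.index :=
      Dvd.intro _ (Subgroup.relIndex_mul_index Subgroup.le_normalizer)
    exact S.not_dvd_index (hSP.symm ▸ h1.trans h2)
  have hD := CfsgLib.Dickson.isDicksonAction (p := p) H
  obtain ⟨l, hl⟩ := IsCyclic.exists_ofOrder_eq_natCard (α := (ZMod p)ˣ)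
  rw [Nat.card_eq_fintype_card, ZMod.card_units] at hl
  set T : Finset (OnePoint K) := s.attach.image fun v => point v.1 (hs0 v.1 v.2) with hTdef
  have hTcard : T.card = s.card := by
    rw [hTdef, Finset.card_image_of_injective, Finset.card_attach]
    exact fun v w h => Subtype.ext (hspar _ v.2 _ w.2 (point_parallel h))
  have hstab : ∀ k : ℕ, 4 ≤ k → (∀ m : ℕ, 0 < m → p - 1 ∣ 3 * m → k ≤ m) →
      ∀ x ∈ T, k ≤ Nat.card (MulAction.stabilizer H x) := by
    intro k _ hk x hx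
    obtain ⟨⟨v, hv⟩, -, rfl⟩ := Finset.mem_image.1 hx
    obtain ⟨a, rfl, hT⟩ := hs v hv
    obtain ⟨n, hnz, hna⟩ := hT l
    have hdet : ((μ n : GL (Fin 2) (ZMod p)) : Matrix (Fin 2) (Fin 2) (ZMod p)).det = (l : ZMod p) :=
      C.det_mat _ hnz
    have heig : ((μ n : GL (Fin 2) (ZMod p)) : Matrix (Fin 2) (Fin 2) (ZMod p)) *ᵥ C.cor a =
        ((l⁻¹ : (ZMod p)ˣ) : ZMod p) • C.cor a := by
      rw [← hna, C.cor_apply]
      rfl
    let h : H := φ.rangeRestrict n
    have hfix : h • point (C.cor a) (hs0 _ hv) = point (C.cor a) (hs0 _ hv) := by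
      show CfsgLib.Dickson.toClosure (Matrix.ProjGenLinGroup.mk (μ n)) •
        point (C.cor a) (hs0 _ hv) = point (C.cor a) (hs0 _ hv)
      rw [CfsgLib.Dickson.toClosure, CfsgLib.Dickson.pglMap_mk, CfsgLib.Dickson.mk_smul]
      apply (OnePoint.equivProjectivization K).injective
      rw [OnePoint.equivProjectivization_smul, point, Equiv.apply_symm_apply, Projectivization.smul_mk,
        Projectivization.mk_eq_mk_iff']
      refine ⟨algebraMap (ZMod p) K ((l⁻¹ : (ZMod p)ˣ) : ZMod p), ?_⟩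
      ext i
      rw [Units.smul_def, Matrix.smul_eq_mulVec]
      refine Eq.trans ?_ (RingHom.map_mulVec (algebraMap (ZMod p) K) _ _ i)
      rw [heig]
      exact (map_mul (algebraMap (ZMod p) K) _ _).symm
    have hord : k ≤ orderOf h := by
      refine hk _ (orderOf_pos h) ?_
      rw [← hl]
      have h1 : ((h ^ orderOf h : H) : PGL(2, K)) = 1 := by rw [pow_orderOf_eq_one]; rfl
      have h2 : Matrix.ProjGenLinGroup.mk (μ n ^ orderOf h) = 1 := by
        apply CfsgLib.Dickson.toClosure_injective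
        rw [map_one, map_pow, map_pow]
        exact h1
      rw [CfsgLib.Dickson.mk_eq_one_iff] at h2
      set j := orderOf h
      have hpow : ∀ i : ℕ, ((μ n ^ i : GL (Fin 2) (ZMod p)) : Matrix (Fin 2) (Fin 2) (ZMod p)) *ᵥ C.cor a =
          ((l⁻¹ : (ZMod p)ˣ) : ZMod p) ^ i • C.cor a := by
        intro i
        induction i with
        | zero => rw [pow_zero, Units.val_one, Matrix.one_mulVec, pow_zero, one_smul]
        | succ i ih =>
          rw [pow_succ, Units.val_mul, ← Matrix.mulVec_mulVec, heig, Matrix.mulVec_smul, ih, smul_smul,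
            pow_succ']
      set M := ((μ n ^ j : GL (Fin 2) (ZMod p)) : Matrix (Fin 2) (Fin 2) (ZMod p)) with hM
      obtain ⟨h01, h10, h00⟩ : M 0 1 = 0 ∧ M 1 0 = 0 ∧ M 0 0 = M 1 1 := h2
      have hMd : M.det = (l : ZMod p) ^ j := by rw [hM, Units.val_pow_eq_pow_val, Matrix.det_pow, hdet]
      have hcv : M 0 0 = ((l⁻¹ : (ZMod p)ˣ) : ZMod p) ^ j := by
        obtain ⟨i, hi⟩ := Function.ne_iff.1 (hs0 _ hv)
        have := congrFun (hpow j) i
        rw [← hM] at this
        fin_cases i <;>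
          simp only [Fin.zero_eta, Fin.mk_one, Fin.isValue, Matrix.mulVec, dotProduct, Fin.sum_univ_two, h01, h10,
            zero_mul, add_zero, zero_add, Pi.smul_apply, smul_eq_mul, Pi.zero_apply, mul_eq_mul_right_iff, ne_eq] at this hi
        · exact this.resolve_right hi
        · rw [h00]; exact this.resolve_right hi
      rw [Matrix.det_fin_two, h01, h10, ← h00, hcv, mul_zero, sub_zero, ← Units.val_pow_eq_pow_val,
        ← Units.val_pow_eq_pow_val, ← Units.val_mul] at hMd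
      have h3 : l ^ (3 * j) = 1 := by
        have := Units.ext hMd
        rw [inv_pow, ← mul_inv, inv_eq_iff_eq_inv, eq_inv_iff_mul_eq_one] at this
        rw [show 3 * j = j + j + j by ring, pow_add, pow_add]
        exact this
      exact orderOf_dvd_of_pow_eq_one h3
    refine hord.trans ?_
    have hle : Subgroup.zpowers h ≤ MulAction.stabilizer H (point (C.cor a) (hs0 _ hv)) :=
      Subgroup.zpowers_le.2 hfix
    exact (Nat.card_zpowers h).symm.le.trans (Subgroup.card_le_of_le hle)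
  have hmul : ∀ m : ℕ, 0 < m → p - 1 ∣ 3 * m → p - 1 ≤ 3 * m := fun m hm hd => Nat.le_of_dvd (by omega) hd
  rw [← hTcard]
  refine ⟨fun h13 => (hD.few_points hH T le_rfl (hstab 4 le_rfl fun m hm hd => by
    have := hmul m hm hd; omega)).1, fun h11 hne => ?_⟩
  refine (hD.few_points hH T (show 4 ≤ 6 by norm_num) (hstab 6 (by norm_num) fun m hm hd => ?_)).2 le_rfl
  have := hmul m hm hd
  by_cases h19 : 19 ≤ p
  · omega
  have key : ∀ q < 19, 11 ≤ q → Nat.Prime q → q = 11 ∨ q = 13 ∨ q = 17 := by decide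
  rcases key p (by omega) h11 hp with h | h | h <;> subst h <;> omega

theorem hasSL_of_transvections (hE : Cfsg.IsExtraspecial p P) (hcard : Nat.card P = p ^ 3) (C : Coord p P)
    {a : P} (ha : C.cor a ≠ 0)
    (h : ∀ c : Multiplicative (Fin 2 → ZMod p) ≃* planeOf a,
      (∀ v : Fin 2 → ZMod p, ((c (Multiplicative.ofAdd v) : planeOf a) : G) =
        (C.z : G) ^ (v 0).val * (a : G) ^ (v 1).val) →
      CfsgLib.Fus.EssentialRankTwo.slAction c (CfsgLib.SL2.u 1) ∈ (planeOf a).normalizerMonoidHom.range ∧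
      ∃ j : ZMod p, j ≠ 0 ∧
        CfsgLib.Fus.EssentialRankTwo.slAction c (CfsgLib.SL2.l j) ∈ (planeOf a).normalizerMonoidHom.range) :
    HasSL C a := by
  obtain ⟨-, -, c, hc⟩ := exists_plane_coord hE hcard C ha
  refine ⟨c, hc, ?_⟩
  obtain ⟨hu, j, hj, hl⟩ := h c hc
  set I := (planeOf a).normalizerMonoidHom.range.comap (CfsgLib.Fus.EssentialRankTwo.slAction c) with hI
  have hUI : CfsgLib.SL2.U ≤ I := by
    intro g hg
    obtain ⟨t, rfl⟩ := CfsgLib.SL2.mem_U.1 hg
    have h1 : CfsgLib.SL2.u t = (CfsgLib.SL2.u (1 : ZMod p)) ^ t.val := by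
      rw [CfsgLib.SL2.u, CfsgLib.SL2.u, ← map_pow, ← ofAdd_nsmul, nsmul_eq_mul, mul_one,
        ZMod.natCast_zmod_val]
    rw [h1]
    exact pow_mem (show CfsgLib.SL2.u 1 ∈ I from hu) _
  have hnotB : CfsgLib.SL2.l j ∉ (CfsgLib.SL2.B : Subgroup (Matrix.SpecialLinearGroup (Fin 2) (ZMod p))) := by
    rw [CfsgLib.SL2.mem_B]
    simpa using hj
  have htop : I = ⊤ := by
    rw [eq_top_iff, ← CfsgLib.SL2.U_sup_zpowers_eq_top hnotB]
    exact sup_le hUI (Subgroup.zpowers_le.2 hl)
  exact fun s => (show s ∈ I by rw [htop]; trivial)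

end CfsgLib.ExtraspecialOdd.Radical
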